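import Cfsg.Agent.CosetEnum.G4J.TYData

/-! Permutation table (generated data, owner: helper28). -/

set_option autoImplicit false
set_option maxRecDepth 1000000

namespace Cfsg.Agent.CosetEnum.G4JTY

theorem h0_0 : allR (orbC P letsk [] 0 1) 0 1 = true := by decide +kernel

theorem h1_0 : allR (orbC P letsk [] 1 33) 1 32 = true := by decide +kernel

theorem h2_0 : allR (orbC P letsk [] 33 113) 33 80 = true := by decide +kernel

theorem h3_0 : allR (orbC P letsk [] 113 273) 113 160 = true := by decide +kernel

theorem h4_0 : allR (orbC P letsk [] 273 305) 273 32 = true := by decide +kernel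

theorem h5_0 : allR (orbC P letsk [] 305 315) 305 10 = true := by decide +kernel

end Cfsg.Agent.CosetEnum.G4JTY
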