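import Cfsg.Agent.CosetEnum.Step
import Cfsg.Agent.CosetEnum.G4J.XP0
import Cfsg.Agent.CosetEnum.G4J.XP1
import Cfsg.Agent.CosetEnum.G4J.XP2
import Cfsg.Agent.CosetEnum.G4J.XP3
import Cfsg.Agent.CosetEnum.G4J.XP4
import Cfsg.Agent.CosetEnum.G4J.YP0
import Cfsg.Agent.CosetEnum.G4J.YP1
import Cfsg.Agent.CosetEnum.G4J.YP2
import Cfsg.Agent.CosetEnum.G4J.YP3
import Cfsg.Agent.CosetEnum.G4J.YP4
import Cfsg.Agent.CosetEnum.G4J.YP5
import Cfsg.Agent.CosetEnum.G4J.YP6
import Cfsg.Agent.CosetEnum.G4J.YP7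
import Cfsg.Agent.CosetEnum.G4J.YP8
import Cfsg.Agent.CosetEnum.Level
import Cfsg.Agent.CosetEnum.G4J.TXR0
import Cfsg.Agent.CosetEnum.G4J.TXH0
import Cfsg.Agent.CosetEnum.G4J.TYR0
import Cfsg.Agent.CosetEnum.G4J.TYH0

/-! Certificates of coset enumerations and tables (generated, owner: helper28). -/

set_option autoImplicit false
set_option maxRecDepth 1000000

namespace Cfsg.Agent.CosetEnum.G4JX

theorem st : staticOK 7 iv (RL.map expand) subs P L = true := by decide +kernel

theorem seg : Seg P L P.m 100 :=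
  (((((Seg.nil).snoc part0).snoc part1).snoc part2).snoc part3).snoc part4

theorem cert : Cert 7 iv RL subs 100 := fun g H hl hrels hsubs =>
  upper g H 7 iv hl (RL.map expand) subs hrels hsubs P L rfl st seg

end Cfsg.Agent.CosetEnum.G4JX
namespace Cfsg.Agent.CosetEnum.G4JY

theorem st : staticOK 6 iv (RL.map expand) subs P L = true := by decide +kernel

theorem seg : Seg P L P.m 315 :=
  (((((((((Seg.nil).snoc part0).snoc part1).snoc part2).snoc part3).snoc part4).snoc part5).snoc part6).snoc part7).snoc part8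

theorem cert : Cert 6 iv RL subs 315 := fun g H hl hrels hsubs =>
  upper g H 6 iv hl (RL.map expand) subs hrels hsubs P L rfl st seg

end Cfsg.Agent.CosetEnum.G4JY
namespace Cfsg.Agent.CosetEnum.G4JTX

theorem st : letsB 7 iv lets RL = true := by decide +kernel

theorem sk : subB 3 iv letsk = true := by decide +kernel

theorem tabOK : TabOK P 7 iv lets RL := ⟨st, Cov.of r0 rfl⟩

theorem covO : Cov (orbC P lets [] 0 P.m) 0 P.m := Cov.of o0 rfl

theorem orbs : Orbs P letsk [] [0, 1, 64, 100] :=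
  ⟨by decide +kernel, by decide +kernel, Cov.of h0_0 rfl, ⟨by decide +kernel, by decide +kernel, Cov.of h1_0 rfl, ⟨by decide +kernel, by decide +kernel, Cov.of h2_0 rfl, trivial⟩⟩⟩

theorem last : lastD 1 [64, 100] = P.m := rfl

end Cfsg.Agent.CosetEnum.G4JTX
namespace Cfsg.Agent.CosetEnum.G4JTY

theorem st : letsB 6 iv lets RL = true := by decide +kernel

theorem sk : subB 4 iv letsk = true := by decide +kernel

theorem tabOK : TabOK P 6 iv lets RL := ⟨st, Cov.of r0 rfl⟩

theorem covO : Cov (orbC P lets [] 0 P.m) 0 P.m := Cov.of o0 rfl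

theorem orbs : Orbs P letsk [] [0, 1, 33, 113, 273, 305, 315] :=
  ⟨by decide +kernel, by decide +kernel, Cov.of h0_0 rfl, ⟨by decide +kernel, by decide +kernel, Cov.of h1_0 rfl, ⟨by decide +kernel, by decide +kernel, Cov.of h2_0 rfl, ⟨by decide +kernel, by decide +kernel, Cov.of h3_0 rfl, ⟨by decide +kernel, by decide +kernel, Cov.of h4_0 rfl, ⟨by decide +kernel, by decide +kernel, Cov.of h5_0 rfl, trivial⟩⟩⟩⟩⟩⟩

theorem last : lastD 1 [33, 113, 273, 305, 315] = P.m := rfl

end Cfsg.Agent.CosetEnum.G4JTY
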