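import Cfsg.Agent.CosetEnum.G4J.J2Tb
import Cfsg.Agent.LE.TabGood
import Cfsg.Agent.CosetEnum.Suz.Chain
import Cfsg.Agent.Ico.Group

/-!
The presented `J₂` is `Spor.J2` (owner: helper28).
-/

set_option autoImplicit false

namespace Cfsg.Agent.CosetEnum.G4J

open Cfsg.Agent.PermTab Cfsg.Agent.CosetEnum Cfsg.Agent Cfsg.Agent.LE Cfsg.Agent.CosetEnum.Suz

theorem tb_big (x : ℕ) (hx : 5 < x) : tb x = J2Tab.idt := by
  match x, hx with
  | n + 6, _ => rfl

theorem tb_ok : ∀ x ≤ 5, tvalid 7 100 (tb x) = true ∧ sift 7 100 J2Tab.idt J2Tab.chain (tb x) = true := by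
  decide +kernel

theorem idt_ok : tvalid 7 100 J2Tab.idt = true ∧ sift 7 100 J2Tab.idt J2Tab.chain J2Tab.idt = true := by
  decide +kernel

theorem tb_in (x : ℕ) : InGrp 7 100 J2Tab.J (tb x) := by
  have h : tvalid 7 100 (tb x) = true ∧ sift 7 100 J2Tab.idt J2Tab.chain (tb x) = true := by
    by_cases hx : x ≤ 5
    · exact tb_ok x hx
    · rw [tb_big x (by omega)]; exact idt_ok
  exact ⟨h.1, mem_of_sift (by norm_num) J2Tab.hid J2Tab.chk h.1 h.2⟩

theorem tb_rel : chkRels 7 100 J2Tab.idt tb SuzT5.RL = true := by decide +kernel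

theorem good_tb : Good (tfam tb_in) 5 SuzT5.iv SuzT5.RL := by
  refine good_tfam (by norm_num) J2Tab.hid tb_in ?_ ?_ rfl tb_big tb_rel
  · decide +kernel
  · intro x hx
    match x, hx with
    | n + 6, _ => simp [SuzT5.iv, ivL]

theorem tb_ne : Nat.beq (tget 7 (tb 1) 0) 0 = false ∨ Nat.beq (tget 7 (tb 1) 1) 1 = false ∨
    Nat.beq (tget 7 (tb 1) 2) 2 = false := by decide +kernel

theorem isoQ5 : Nonempty (Q5 ≃* Cfsg.Spor.J2) := by
  obtain ⟨φ, hφ⟩ := U5.univ _ _ good_tb
  have hfin : Finite Q5 := Nat.finite_of_card_ne_zero (by rw [card5]; norm_num)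
  have hfin2 : Finite J2Tab.J := Nat.finite_of_card_ne_zero (by rw [J2Tab.card_J]; norm_num)
  have hinj : Function.Injective φ := by
    rw [← MonoidHom.ker_eq_bot_iff]
    rcases simple5.eq_bot_or_eq_top_of_normal φ.ker inferInstance with h | h
    · exact h
    · exfalso
      have h1 : q5 1 ∈ φ.ker := by rw [h]; exact Subgroup.mem_top _
      rw [MonoidHom.mem_ker, hφ] at h1
      have h2 : toPerm 7 100 (tb 1) = 1 := congrArg Subtype.val h1
      have h3 : ∀ i : Fin 100, tget 7 (tb 1) i = i := by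
        intro i
        rw [← toPerm_apply (tb_in 1).1 i, h2]
        rfl
      rcases tb_ne with h4 | h4 | h4
      · have := h3 0
        rw [show tget 7 (tb 1) 0 = 0 from this] at h4
        simp at h4
      · have := h3 1
        rw [show tget 7 (tb 1) 1 = 1 from this] at h4
        simp at h4
      · have := h3 2
        rw [show tget 7 (tb 1) 2 = 2 from this] at h4
        simp at h4
  have hb : Function.Bijective φ := by
    rw [Nat.bijective_iff_injective_and_card]
    exact ⟨hinj, by rw [card5, J2Tab.card_J]⟩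
  exact ⟨(MulEquiv.ofBijective φ hb).trans Ico.isoJ.symm⟩

end Cfsg.Agent.CosetEnum.G4J
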