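import Cfsg.Agent.PermTab.J2

/-! Tables of the letters of `J₂` on 100 points (generated data, owner: helper28). -/

set_option autoImplicit false

namespace Cfsg.Agent.CosetEnum.G4J

/-- tables of the letters -/
def tb : ℕ → ℕ
  | 1 => 0x550d9dd9ce70279352536aeb1d5a65424524d7dc4c5b66dd176c55bdc4d1f407f062258f56f4d5d61ac2c34e3285ede5d68b8d4b0b93de2412450992c1869c28390042e7ca9b161d1100468e8c26291882478298063c080
  | 2 => 0x5b883609b2ad5cb776cd80e6449586982179f3afa307785b56f1938ea65a0b3644828f76e880a8e4643480fca1d58031af38a8d818b4862298909a0107982b526ab18a10aa3142f9b3979106a592e2a9faf85ed1960942e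
  | 3 => 0x44dc7256019e0bb665ed8ae3ca206540ed22ca024c5b1248d8e1d5ca5d091c00026cdd766cf18c4d9ab4354c95f5f0e5828a454ce267f003838ce544ce68a174ced38113cad54ec5510ad8640cb829f178d782cd48b00bf
  | 4 => 0x63648cebb4ef98753711e5e4a4b8bc5a29f6982d21370eaab3aaa8bc949902420652c41b6d9546018e4f44e71b7aea0a0791181ae0909ec026ce641a1623b59609f5c114852d475b0bf1c3dd85125459758d86275268001
  | 5 => 0x4f3e6ba0cc2aaab0246db5e4aea3a54e232c47b0955675b3d84096d14d1d00a2e6641469814332d242bb71407deae7e2879770639c70cda1a84d2415d3a5034a61f1a7ede63c45585816212ca92302d00597da8e3918808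
  | _ => Cfsg.Agent.J2Tab.idt

end Cfsg.Agent.CosetEnum.G4J
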