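import Cfsg.Agent.CosetEnum.Ext
import Cfsg.Agent.CosetEnum.Suz.Chain
import Cfsg.Agent.CosetEnum.G4J.Certs

/-!
The two-point stabilisers of `G₂(4)` on 416 points are maximal in `J₂` (owner: helper28).
-/

set_option autoImplicit false
set_option maxRecDepth 1000000

namespace Cfsg.Agent.CosetEnum.G4J

open Cfsg.Agent.CosetEnum Cfsg.Agent.CosetEnum.Suz MulAction

/-- words of the letters `a, u, u⁻¹, b, c, d, e`; `⟨a, u⟩ = U₃(3)` -/
def wX : ℕ → List ℕ
  | 1 => [1]
  | 2 => [2, 3, 2, 1, 2, 4, 3, 5, 4]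
  | 3 => [4, 5, 3, 4, 2, 1, 2, 3, 2]
  | 4 => [2]
  | 5 => [3]
  | 6 => [4]
  | 7 => [5]
  | _ => []

/-- words of the letters `c, d, e, y, a, b`; `⟨c, d, e, y⟩ = 2^{1+4} : A₅` -/
def wY : ℕ → List ℕ
  | 1 => [3]
  | 2 => [4]
  | 3 => [5]
  | 4 => [2, 3, 4, 5, 1, 2, 1, 2, 3, 4, 3, 2, 1, 2, 1, 5, 4, 3, 2]
  | 5 => [1]
  | 6 => [2]
  | _ => []

/-- the family of a list of words -/
def fam (w : ℕ → List ℕ) (y : ℕ) : Q5 := ((w y).map q5).prod

theorem prod_flatMap {G : Type*} [Group G] (g : ℕ → G) (w : ℕ → List ℕ) (u : List ℕ) :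
    ((u.flatMap w).map g).prod = (u.map (fun x => ((w x).map g).prod)).prod := by
  induction u with
  | nil => simp
  | cons x u ih => rw [List.flatMap_cons, List.map_append, List.prod_append, ih, List.map_cons, List.prod_cons]

/-- relations to be tested -/
def usW (m : ℕ) (w : ℕ → List ℕ) (l : List (ℕ × ℕ)) (RL : List (List ℕ × ℕ)) : List (List ℕ) :=
  ((List.range (m + 1)).map fun x => w (ivL l x) ++ w x) ++ RL.map fun p => (expand p).flatMap w

theorem good_fam {m : ℕ} {w : ℕ → List ℕ} {l : List (ℕ × ℕ)} {RL : List (List ℕ × ℕ)} (h0 : w 0 = [])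
    (hw0 : ∀ x, m < x → w x = []) (hl : ∀ x, m < x → ivL l x = x)
    (hw : (usW m w l RL).all (wOK 5) = true) (hc : Cov (trivB SuzT5.P (usW m w l RL)) 0 SuzT5.P.m) :
    Good (fam w) m l RL := by
  have key := L5.rels F5.1 hw hc
  constructor
  · intro x
    by_cases hx : x ≤ m
    · have h1 := key (w (ivL l x) ++ w x) (List.mem_append_left _ (List.mem_map.2 ⟨x, List.mem_range.2 (by omega), rfl⟩))
      rw [List.map_append, List.prod_append] at h1
      exact eq_inv_of_mul_eq_one_left h1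
    · rw [hl x (by omega)]
      show ((w x).map q5).prod = (((w x).map q5).prod)⁻¹
      rw [hw0 x (by omega)]
      simp
  · intro x hx
    show ((w x).map q5).prod = 1
    have : x = 0 ∨ m < x := by
      by_contra hc
      have h2 : isLet m x = true := isLet_iff.2 (by omega)
      rw [h2] at hx
      exact absurd hx (by simp)
    rcases this with rfl | h
    · rw [h0]; rfl
    · rw [hw0 x h]; rfl
  · intro p hp
    show ((p.1.map (fun x => ((w x).map q5).prod)).prod) ^ p.2 = 1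
    rw [← prod_expand, ← prod_flatMap]
    exact key _ (List.mem_append_right _ (List.mem_map.2 ⟨p, hp, rfl⟩))

theorem wX_big (x : ℕ) (hx : 7 < x) : wX x = [] := by
  match x, hx with
  | n + 8, _ => rfl

theorem wY_big (x : ℕ) (hx : 6 < x) : wY x = [] := by
  match x, hx with
  | n + 7, _ => rfl

theorem goodX : Good (fam wX) 7 G4JTX.iv G4JTX.RL :=
  good_fam rfl wX_big (fun x hx => by
    match x, hx with
    | n + 8, _ => simp [G4JTX.iv, ivL]) (by decide +kernel) (Cov.of (show allR (trivB SuzT5.P (usW 7 wX G4JTX.iv G4JTX.RL)) 0 280 = true by decide +kernel) rfl)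

theorem goodY : Good (fam wY) 6 G4JTY.iv G4JTY.RL :=
  good_fam rfl wY_big (fun x hx => by
    match x, hx with
    | n + 7, _ => simp [G4JTY.iv, ivL]) (by decide +kernel) (Cov.of (show allR (trivB SuzT5.P (usW 6 wY G4JTY.iv G4JTY.RL)) 0 280 = true by decide +kernel) rfl)

theorem univX : Univ (fam wX) 7 G4JTX.iv G4JTX.RL := by
  refine U5.ext goodX (pl := [1, 4, 5, 6, 7]) (by decide +kernel) ?_ (wd := wX) ?_
  · intro x hx
    rw [isLet_iff] at hx
    obtain ⟨hx1, hx2⟩ := hx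
    interval_cases x <;> exact ⟨rfl, by simp [fam, wX]⟩
  · intro y hy
    rw [isLet_iff] at hy
    obtain ⟨hy1, hy2⟩ := hy
    interval_cases y
    · exact Or.inl ⟨1, rfl, rfl⟩
    · exact Or.inr (Or.inl ⟨rfl, rfl, by decide +kernel⟩)
    · exact Or.inr (Or.inr ⟨2, rfl, rfl, rfl, by decide +kernel⟩)
    · exact Or.inl ⟨2, rfl, rfl⟩
    · exact Or.inl ⟨3, rfl, rfl⟩
    · exact Or.inl ⟨4, rfl, rfl⟩
    · exact Or.inl ⟨5, rfl, rfl⟩

theorem univY : Univ (fam wY) 6 G4JTY.iv G4JTY.RL := by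
  refine U5.ext goodY (pl := [5, 6, 1, 2, 3]) (by decide +kernel) ?_ (wd := wY) ?_
  · intro x hx
    rw [isLet_iff] at hx
    obtain ⟨hx1, hx2⟩ := hx
    interval_cases x <;> exact ⟨rfl, by simp [fam, wY]⟩
  · intro y hy
    rw [isLet_iff] at hy
    obtain ⟨hy1, hy2⟩ := hy
    interval_cases y
    · exact Or.inl ⟨3, rfl, rfl⟩
    · exact Or.inl ⟨4, rfl, rfl⟩
    · exact Or.inl ⟨5, rfl, rfl⟩
    · exact Or.inr (Or.inl ⟨rfl, rfl, by decide +kernel⟩)
    · exact Or.inl ⟨1, rfl, rfl⟩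
    · exact Or.inl ⟨2, rfl, rfl⟩

theorem LX : Lvl (fam wX) 7 G4JTX.iv G4JTX.lets G4JTX.P 3 [64, 100] :=
  lvl_of univX G4JTX.tabOK G4JTX.sk (by norm_num) G4JTX.covO G4JTX.orbs G4JTX.last (show 1 < 100 by norm_num)
    (G4JX.cert.cl univX.good (by decide +kernel) (by decide +kernel) (by norm_num))

theorem LY : Lvl (fam wY) 6 G4JTY.iv G4JTY.lets G4JTY.P 4 [33, 113, 273, 305, 315] :=
  lvl_of univY G4JTY.tabOK G4JTY.sk (by norm_num) G4JTY.covO G4JTY.orbs G4JTY.last (show 1 < 315 by norm_num)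
    (G4JY.cert.cl univY.good (by decide +kernel) (by decide +kernel) (by norm_num))

theorem coatomX : IsCoatom (Cl (fam wX) 3) := LX.coatom univX.good.inv (by decide +kernel)

theorem coatomY : IsCoatom (Cl (fam wY) 4) := LY.coatom univY.good.inv (by decide +kernel)

/-! ### two-point stabilisers -/

section

variable [MulAction Q6 (Fin SuzT6.P.m)] (hA : Acts Q6 SuzT6.P q6 SuzT6.lets)

include hA

theorem covBy_pt {w : ℕ → List ℕ} {k : ℕ} (hC : IsCoatom (Cl (fam w) k)) {j0 : ℕ} (hj : j0 < SuzT6.P.m)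
    (hw : ∀ y, isLet k y = true → wOK 5 (w y) = true ∧ actW SuzT6.P (w y) j0 = j0)
    {x : ℕ} (hx : isLet 5 x = true) (hm : Nat.beq (act SuzT6.P x j0) j0 = false) :
    Cl q6 5 ⊓ stabilizer Q6 (⟨j0, hj⟩ : Fin SuzT6.P.m) ⋖ Cl q6 5 := by
  obtain ⟨e, he⟩ := sub65
  let ι : Q5 →* Q6 := (Cl q6 5).subtype.comp e.toMonoidHom
  have hι : Function.Injective ι := (Cl q6 5).subtype_injective.comp e.injective
  have hr : ι.range = Cl q6 5 := by
    show ((Cl q6 5).subtype.comp e.toMonoidHom).range = _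
    rw [MonoidHom.range_comp, MonoidHom.range_eq_top.2 e.surjective, ← MonoidHom.range_eq_map, Subgroup.range_subtype]
  have hιq : ∀ y, isLet 5 y = true → ι (q5 y) = q6 y := he
  have hl6 : ∀ y, isLet 5 y = true → y ∈ SuzT6.lets := by
    intro y hy
    apply SuzT6.tabOK.mem_iff.2
    rw [isLet_iff] at hy ⊢
    omega
  have h1 : (Cl (fam w) k).map ι ≤ Cl q6 5 ⊓ stabilizer Q6 (⟨j0, hj⟩ : Fin SuzT6.P.m) := by
    refine le_inf ?_ ?_
    · rw [← hr, MonoidHom.range_eq_map]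
      exact Subgroup.map_mono le_top
    · rw [Subgroup.map_le_iff_le_comap]
      unfold Cl
      rw [Subgroup.closure_le]
      rintro _ ⟨y, hy, rfl⟩
      obtain ⟨h2, h3⟩ := hw y hy
      have h2' : ∀ z ∈ w y, isLet 5 z = true := by
        simpa only [wOK, List.all_eq_true] using h2
      show ι (((w y).map q5).prod) ∈ stabilizer Q6 (⟨j0, hj⟩ : Fin SuzT6.P.m)
      have h4 : ι (((w y).map q5).prod) = ((w y).map q6).prod := by
        rw [map_list_prod, List.map_map]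
        congr 1
        apply List.map_congr_left
        intro z hz
        exact hιq z (h2' z hz)
      rw [h4, mem_stabilizer_iff]
      have h5 := hA.word (fun z hz => hl6 z (h2' z hz)) (⟨j0, hj⟩ : Fin SuzT6.P.m)
      rw [val_inv] at h5
      have h6 : (((w y).map q6).prod)⁻¹ • (⟨j0, hj⟩ : Fin SuzT6.P.m) = ⟨j0, hj⟩ := Fin.ext (by rw [h5]; exact h3)
      rw [inv_smul_eq_iff] at h6
      exact h6.symm
  have h2 := covBy_map ι hι hC
  rw [hr] at h2
  rcases h2.eq_or_eq h1 inf_le_left with h3 | h3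
  · rw [h3]
    exact h2
  · exfalso
    have h4 : q6 x ∈ Cl q6 5 ⊓ stabilizer Q6 (⟨j0, hj⟩ : Fin SuzT6.P.m) := by
      rw [h3]
      exact mem_Cl q6 hx
    have h5 : (q6 x)⁻¹ • (⟨j0, hj⟩ : Fin SuzT6.P.m) = ⟨j0, hj⟩ := by
      rw [inv_smul_eq_iff]
      exact (mem_stabilizer_iff.1 h4.2).symm
    have h6 := hA x (hl6 x hx) ⟨j0, hj⟩
    rw [h5] at h6
    have h6 : j0 = act SuzT6.P x j0 := h6
    rw [← h6] at hm
    simp at hm

end

theorem covBy_all (x : Q6) (hx : x ∉ Cl q6 5) : Cl q6 5 ⊓ (Cl q6 5).map (MulAut.conj x).toMonoidHom ⋖ Cl q6 5 := by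
  obtain ⟨A, letsk, cw, h1, h2, h3, h3k, h4, h5, h6, h7⟩ := L6.ex
  have hpos := L6.pos
  have hinv := U6.good.inv
  have h8 : (Cl q6 5).map (MulAut.conj x).toMonoidHom = stabilizer Q6 (x • (⟨0, by omega⟩ : Fin SuzT6.P.m)) := by
    rw [← h7]
    exact (stabilizer_smul_eq_stabilizer_map_conj x _).symm
  rw [h8]
  have h9 : x • (⟨0, by omega⟩ : Fin SuzT6.P.m) ≠ ⟨0, by omega⟩ := by
    intro h
    apply hx
    rw [← h7]
    exact h
  set j := x • (⟨0, by omega⟩ : Fin SuzT6.P.m) with hj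
  have hj1 : 1 ≤ (j : ℕ) := by
    by_contra h
    exact h9 (Fin.ext (show (j : ℕ) = 0 by omega))
  -- transport
  have key : ∀ j0 : Fin SuzT6.P.m, 1 ≤ (j0 : ℕ) → ivIdx [1, 316, 416] j0 = ivIdx [1, 316, 416] j →
      Cl q6 5 ⊓ stabilizer Q6 j0 ⋖ Cl q6 5 → Cl q6 5 ⊓ stabilizer Q6 j ⋖ Cl q6 5 := by
    intro j0 h10 h11 h12
    obtain ⟨h, hh, hhj⟩ := same_orbit h3k (subB_inv hinv h2) h5 h6 h10 hj1 h11
    rw [subB_ClL h2] at hh
    have h13 : (Cl q6 5).map (MulAut.conj h).toMonoidHom = Cl q6 5 := by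
      have := stabilizer_smul_eq_stabilizer_map_conj h (⟨0, by omega⟩ : Fin SuzT6.P.m)
      have h14 : h • (⟨0, by omega⟩ : Fin SuzT6.P.m) = ⟨0, by omega⟩ := by
        rw [← mem_stabilizer_iff, h7]
        exact hh
      rw [h14, h7] at this
      exact this.symm
    have h15 : (Cl q6 5 ⊓ stabilizer Q6 j0).map (MulAut.conj h).toMonoidHom = Cl q6 5 ⊓ stabilizer Q6 j := by
      rw [Subgroup.map_inf _ _ _ (MulAut.conj h).injective, h13, ← hhj, stabilizer_smul_eq_stabilizer_map_conj]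
    have h16 := (apply_covBy_apply_iff (MulAut.conj h).mapSubgroup).2 h12
    have h17 : (MulAut.conj h).mapSubgroup (Cl q6 5 ⊓ stabilizer Q6 j0) = Cl q6 5 ⊓ stabilizer Q6 j := h15
    have h18 : (MulAut.conj h).mapSubgroup (Cl q6 5) = Cl q6 5 := h13
    rw [h17, h18] at h16
    exact h16
  have hm : SuzT6.P.m = 416 := rfl
  by_cases h10 : (j : ℕ) < 316
  · refine key ⟨1, by omega⟩ le_rfl ?_ ?_
    · simp [ivIdx, h10]
    · refine covBy_pt h3 coatomY (by omega) ?_ (x := 2) rfl (by decide +kernel)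
      intro y hy
      rw [isLet_iff] at hy
      obtain ⟨hy1, hy2⟩ := hy
      interval_cases y <;> exact ⟨rfl, by decide +kernel⟩
  · have h11 : (j : ℕ) < 416 := j.2
    refine key ⟨343, by omega⟩ (show 1 ≤ 343 by norm_num) ?_ ?_
    · show ivIdx [1, 316, 416] 343 = ivIdx [1, 316, 416] (j : ℕ)
      simp only [ivIdx, if_neg h10]
      simp [h11]
    · refine covBy_pt h3 coatomX (by omega) ?_ (x := 2) rfl (by decide +kernel)
      intro y hy
      rw [isLet_iff] at hy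
      obtain ⟨hy1, hy2⟩ := hy
      interval_cases y <;> exact ⟨rfl, by decide +kernel⟩

theorem coatom6 : IsCoatom (Cl q6 5) := L6.coatom U6.good.inv (by decide +kernel)

/-- **Transport to an isomorphic group.** -/
theorem transport {G : Type*} [Group G] (E : Q6 ≃* G) :
    IsCoatom ((Cl q6 5).map E.toMonoidHom) ∧ ∀ x : G, x ∉ (Cl q6 5).map E.toMonoidHom →
      IsCoatom (((Cl q6 5).map E.toMonoidHom ⊓ ((Cl q6 5).map E.toMonoidHom).map (MulAut.conj x).toMonoidHom).subgroupOf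
        ((Cl q6 5).map E.toMonoidHom)) := by
  refine ⟨?_, ?_⟩
  · exact (OrderIso.isCoatom_iff E.mapSubgroup _).2 coatom6
  · intro x hx
    apply coatom_of_covBy
    obtain ⟨y, rfl⟩ := E.surjective x
    have hy : y ∉ Cl q6 5 := fun h => hx ⟨y, h, rfl⟩
    have h1 := (apply_covBy_apply_iff E.mapSubgroup).2 (covBy_all y hy)
    have h2 : E.mapSubgroup (Cl q6 5 ⊓ (Cl q6 5).map (MulAut.conj y).toMonoidHom) =
        (Cl q6 5).map E.toMonoidHom ⊓ ((Cl q6 5).map E.toMonoidHom).map (MulAut.conj (E y)).toMonoidHom := by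
      show (Cl q6 5 ⊓ (Cl q6 5).map (MulAut.conj y).toMonoidHom).map E.toMonoidHom = _
      rw [Subgroup.map_inf _ _ _ E.injective, Subgroup.map_map, Subgroup.map_map]
      congr 2
      ext z
      simp
    rw [h2] at h1
    exact h1

end Cfsg.Agent.CosetEnum.G4J
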